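import Mathlib
import Cfsg.Agent.Lib.CH2.EqB
import Cfsg.Agent.Lib.FGS.EqOrder
import Cfsg.Agent.Lib.FGS.ZAct

/-! Solvable groups in which abelian subgroups of equal order are conjugate: all subgroups of equal
order are conjugate. -/

set_option autoImplicit false

namespace H22.Eq

open Subgroup Cfsg H69 QuaternionGroup
open scoped commutatorElement

universe u

variable {G : Type*} [Group G] [Finite G] {p : ℕ}

omit [Finite G] in
theorem comm_le {A B : Subgroup G} (hB : IsMulCommutative B) (h : A ≤ B) : IsMulCommutative A :=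
  comm_iff.2 (h.trans ((comm_iff.1 hB).trans (centralizer_anti h)))

theorem ab_cyc {M : Subgroup G} [M.Normal] (h1 : M ≠ ⊥) (hM : IsMulCommutative M)
    (hc : ∀ u ∈ M, ∀ v ∈ M, u ≠ 1 → v ≠ 1 → ∃ g, zpowers v = zpowers u ^ᶜ g)
    (X' : Subgroup (G ⧸ 𝐂(M))) [X'.Normal] (hX : IsMulCommutative X') : IsCyclic X' := by
  set X := X'.comap (QuotientGroup.mk' 𝐂(M))
  refine H80.isCyclic_of_section_fpf (E := X) hM h1 le_normalizer_of_normal inf_le_right
    (fun e he heC => eq_bot_iff.2 fun u hu => ?_) X'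
    (map_comap_eq_self_of_surjective (QuotientGroup.mk'_surjective _) _).ge hX
  by_contra hu1
  have hY : ∀ v ∈ M, ∀ w ∈ M, v ≠ 1 → w ≠ 1 → X ⊓ centralizer {v} ≤ centralizer {w} →
      X ⊓ centralizer {w} ≤ centralizer {v} := fun v hv w hw v1 w1 h => by
    obtain ⟨g, hg⟩ := hc v hv w hw v1 w1
    refine (eq_of_le_of_card_ge (le_inf inf_le_left h) ?_).ge.trans inf_le_right
    rw [← centralizer_zpowers, hg, ← cj_centralizer, ← cj_eq_of_normal X g, ← cj_inf, card_cj,
      centralizer_zpowers, cj_eq_of_normal X g]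
  obtain ⟨v, hv, hev⟩ : ∃ v ∈ M, e ∉ centralizer {v} := by
    by_contra h
    push Not at h
    exact heC fun v hv => (mem_centralizer_singleton_iff.1 (h v hv)).symm
  have he' : e ∈ X ⊓ centralizer {u} :=
    ⟨he, mem_centralizer_singleton_iff.2 (mem_centralizer_singleton_iff.1 hu.2).symm⟩
  have v1 : v ≠ 1 := fun h => hev (mem_centralizer_singleton_iff.2 (by simp [h]))
  have hW : ∀ w ∈ M, ∀ x ∈ X, X ⊓ centralizer {w} ≤ centralizer {x * w * x⁻¹} := fun w hw x hx y hy => by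
    have h2 : ⁅x⁻¹, y⁆ ∈ 𝐂(M) := by
      rw [← QuotientGroup.eq_one_iff, ← QuotientGroup.mk'_apply, map_commutatorElement,
        commutatorElement_eq_one_iff_mul_comm]
      exact congrArg Subtype.val (hX.is_comm.comm ⟨_, inv_mem hx⟩ ⟨_, hy.1⟩)
    rw [mem_centralizer_singleton_iff]
    calc _ = x * (⁅x⁻¹, y⁆ * (y * w)) * x⁻¹ := by rw [commutatorElement_def]; group
      _ = x * (w * ⁅x⁻¹, y⁆ * y) * x⁻¹ := by
        rw [mem_centralizer_singleton_iff.1 hy.2, ← mul_assoc ⁅x⁻¹, y⁆, ← h2 w hw]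
      _ = _ := by rw [commutatorElement_def]; group
  have h3 : X ⊓ centralizer {u * v} ≤ centralizer {u} ⊓ centralizer {v} := fun x hx => by
    have h4 : u⁻¹ * (x * u * x⁻¹) = v * (x * v * x⁻¹)⁻¹ := by
      calc _ = u⁻¹ * (x * (u * v)) * (v⁻¹ * x⁻¹) := by group
        _ = _ := by rw [mem_centralizer_singleton_iff.1 hx.2]; group
    have h5 : u⁻¹ * (x * u * x⁻¹) = 1 := by
      by_contra h5
      have h6 : u⁻¹ * (x * u * x⁻¹) ∈ M := mul_mem (inv_mem hu.1) (Normal.conj_mem inferInstance _ hu.1 x)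
      refine hev (hY v hv _ h6 v1 h5 (fun y hy => ?_) ⟨he, ?_⟩)
      · rw [h4, mem_centralizer_singleton_iff]
        exact ((show Commute y v from mem_centralizer_singleton_iff.1 hy.2).mul_right
          (show Commute y _ from mem_centralizer_singleton_iff.1 (hW v hv x hx.1 hy)).inv_right).eq
      · exact mem_centralizer_singleton_iff.2
          ((show Commute e u from mem_centralizer_singleton_iff.1 he'.2).inv_right.mul_right
          (show Commute e _ from mem_centralizer_singleton_iff.1 (hW u hu.1 x hx.1 he'))).eq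
    refine ⟨mem_centralizer_singleton_iff.2 ?_, mem_centralizer_singleton_iff.2 ?_⟩
    · rw [← mul_inv_eq_iff_eq_mul, ← inv_mul_eq_one.1 h5]
    · rw [← mul_inv_eq_iff_eq_mul, ← mul_inv_eq_one.1 (h4.symm.trans h5)]
  have h4 : u * v ≠ 1 := fun h => hev (by
    rw [eq_inv_of_mul_eq_one_right h, mem_centralizer_singleton_iff]
    exact (show Commute e u from mem_centralizer_singleton_iff.1 he'.2).inv_right.eq)
  exact hev (h3 ⟨he, hY _ (mul_mem hu.1 hv) u hu.1 h4 hu1 (h3.trans inf_le_left) he'⟩).2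

theorem q8_not_comm {S : Type*} [Group S] (e : S ≃* QuaternionGroup 2) : ¬ IsMulCommutative S := fun h =>
  absurd (H78.ConjSub.isMulCommutative_of_equiv e h).is_comm.comm (by decide)

theorem PB.normal_of (hB : PB G) [Group.IsSolvable G]
    (hA : ∀ X : Subgroup G, X.Normal → IsMulCommutative X → IsCyclic X) {r : ℕ} [hr : Fact r.Prime]
    {R : Subgroup G} (hR : IsPGroup r R) (hn : ¬ IsCyclic R) : R.Normal ∧ ¬ IsMulCommutative R := by
  have hK : ∀ (s : ℕ) [Fact s.Prime], IsCyclic (pCore s G) ∨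
      s = 2 ∧ IsSylowIn s (pCore s G) ⊤ ∧ Nonempty (pCore s G ≃* QuaternionGroup 2) := fun s _ => by
    rcases (hB.tri s (Or.inr inferInstance)).cases H1.isPGroup_pCore with h | ⟨h, -⟩ | h
    · exact Or.inl h
    · by_cases h1 : pCore s G = ⊥
      · left; rw [h1]; infer_instance
      obtain ⟨z, hz, h2, h3⟩ := H5.exists_mem_centralizer_orderOf_eq H1.isPGroup_pCore le_rfl le_normalizer h1
      exact Or.inl (hA _ inferInstance (comm_iff.2 fun x hx => hB.mem_prime
        (h3.symm.dvd.trans (H1.orderOf_dvd_card_of_mem h2)) (h x hx)))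
    · exact Or.inr h
  have hR' := ((hB.tri r (Or.inr inferInstance)).cases hR).resolve_left hn
  by_cases h0 : r = 2 ∧ IsSylowIn r (pCore r G) ⊤
  · obtain ⟨rfl, h0⟩ := h0
    rcases hR' with ⟨-, h⟩ | ⟨-, h, ⟨e⟩⟩
    · rcases hK 2 with h1 | ⟨-, -, ⟨e⟩⟩
      · exact absurd (Subgroup.isCyclic_of_le (h0.le_of_le_normalizer' hR le_top le_normalizer_of_normal)) hn
      · exact absurd (H78.ConjSub.isMulCommutative_of_sq_eq_one fun x => Subtype.ext (h _ h0 x x.2))
          (q8_not_comm e)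
    · exact ⟨h.max _ (h0.le_of_le_normalizer' hR le_top le_normalizer_of_normal) le_top h0.isP ▸
        inferInstance, q8_not_comm e⟩
  exfalso
  have h1 : ∀ x y : G, orderOf x = orderOf y → ∃ i : ℤ, y * x ^ i ∈ commutator G := fun x y h => by
    obtain ⟨g, hg⟩ := hB (zpowers x) (zpowers y) inferInstance inferInstance
      (by rw [Nat.card_zpowers, Nat.card_zpowers, h])
    obtain ⟨_, ⟨i, rfl⟩, h⟩ := mem_cj'.1 (hg ▸ mem_zpowers y)
    exact ⟨-i, by
      rw [h, zpow_neg]; exact commutator_mem_commutator (mem_top g) (mem_top _)⟩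
  have h2 : (∀ x ∈ R, x ^ r = 1) → ∃ x ∈ R, ∃ y ∈ R, orderOf x = r ∧ orderOf y = r ∧ y ∉ zpowers x := fun h => by
    obtain ⟨x, hx, h2⟩ := H1.exists_mem_orderOf_eq_prime hr.out (dvd_card_of_ne_bot hR fun e => hn (by
      rw [e]; infer_instance))
    obtain ⟨y, hy, h3⟩ := SetLike.exists_of_lt (lt_of_le_of_ne (zpowers_le.2 hx) fun e => hn (by
      rw [← e]; infer_instance))
    exact ⟨x, hx, y, hy, h2, orderOf_eq_prime (h y hy) fun e => h3 (e ▸ one_mem _), h3⟩
  have h3 : R ≤ commutator G := by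
    rcases hR' with ⟨h, -⟩ | ⟨-, -, ⟨e⟩⟩
    · obtain ⟨x, hx, y, hy, h2, h3, h4⟩ := h2 h
      obtain ⟨i, hi⟩ := h1 x y (h2.trans h3.symm)
      exact fun a ha => hB.mem_prime (orderOf_eq_prime (h _ (mul_mem hy (zpow_mem hx i))) (fun e => h4 (by
        rw [eq_inv_of_mul_eq_one_left e]; exact inv_mem (zpow_mem_zpowers x i))) ▸
        H1.orderOf_dvd_card_of_mem hi) (h a ha)
    · let f := R.subtype.comp e.symm.toMonoidHom
      have hf : Function.Injective f := (subtype_injective _).comp e.symm.injective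
      obtain ⟨i, hi⟩ := h1 (f (a 1)) (f (xa 0)) (by
        rw [orderOf_injective f hf, orderOf_injective f hf, orderOf_xa, orderOf_a_one])
      obtain ⟨j, hj⟩ : ∃ j, (a 1 : QuaternionGroup 2) ^ i = a j := by
        obtain ⟨k, hk⟩ := mem_powers_iff_mem_zpowers.2 (zpow_mem_zpowers (a 1 : QuaternionGroup 2) i)
        exact ⟨k, by rw [← hk]; exact a_one_pow k⟩
      rw [← map_zpow, ← map_mul, hj, xa_mul_a] at hi
      intro x hx
      simpa [f] using hB.quat_mem hf hi (by rw [orderOf_injective f hf, orderOf_xa]) (e ⟨x, hx⟩)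
  have h4 : R ≤ pCore r G := by
    refine H1.le_pCore_of_le_fitting hR (le_trans (le_centralizer_iff.1 ?_) H1.centralizer_fitting_le)
    rw [H1.fitting_eq_iSup_pCore]
    refine iSup_le fun s => le_centralizer_iff.1 ?_
    haveI := Fact.mk s.2
    rcases hK s with h | ⟨h5, h6, ⟨e⟩⟩
    · exact h3.trans (H80.commutator_le_centralizer_of_isCyclic h le_normalizer_of_normal le_normalizer_of_normal)
    have h7 : r ≠ s := fun e => h0 (by subst e; exact ⟨h5, h6⟩)
    have h := (hR'.resolve_right fun e => h7 (e.1.trans h5.symm)).1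
    obtain ⟨A, h8, h9⟩ : ∃ A : Subgroup R, IsMulCommutative A ∧ ¬ IsCyclic A := by
      by_contra h8
      push Not at h8
      obtain ⟨x, hx, y, hy, h2, h3, h4⟩ := h2 h
      have := H80.eq_of_forall_comm_isCyclic hR h8 (zpowers ⟨y, hy⟩) (zpowers ⟨x, hx⟩)
        (by rw [Nat.card_zpowers, ← orderOf_coe, h3]) (by rw [Nat.card_zpowers, ← orderOf_coe, h2])
      obtain ⟨k, hk⟩ : (⟨y, hy⟩ : R) ∈ zpowers ⟨x, hx⟩ := this ▸ mem_zpowers _
      exact h4 ⟨k, congrArg Subtype.val hk⟩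
    have hcop : ∀ B ≤ R, (Nat.card B).Coprime (Nat.card (pCore s G)) := fun B hB =>
      IsPGroup.coprime_card_of_ne r s h7 _ _ (hR.to_le hB) H1.isPGroup_pCore
    by_contra h10
    refine q8_not_comm e (comm_iff.2 (H2.le_of_forall_centralizer_le (A := A.map R.subtype) inferInstance
      (mt (A.equivMapOfInjective _ R.subtype_injective).isCyclic.2 h9) le_normalizer_of_normal
      (hcop _ (map_subtype_le A)) fun x hx x1 q hq => ?_))
    by_contra h11
    have hxR := map_subtype_le A hx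
    have hq' : zpowers q ≤ 𝐂(zpowers x) := by rw [centralizer_zpowers]; exact zpowers_le.2 hq.2
    have := H2.le_centralizer_of_centralizer_le (A := zpowers x) (C := zpowers q)
      (H1.isPGroup_pCore (p := s)).isNilpotent le_normalizer_of_normal (hcop _ (zpowers_le.2 hxR))
      (zpowers_le.2 hq.1) hq' fun y hy => hq' (by
        have h12 : ∀ q y : QuaternionGroup 2, q * y = y * q → (∀ z, z * q = q * z) ∨
            ∃ i : Fin 4, y = q ^ i.1 := by decide
        rcases h12 (e ⟨q, hq.1⟩) (e ⟨y, hy.1⟩) (by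
          rw [← map_mul, ← map_mul]; exact congrArg e (Subtype.ext (hy.2 q (mem_zpowers q)))) with h | ⟨i, h⟩
        · exact (h11 fun z hz => congrArg Subtype.val (e.injective (by
            rw [map_mul, map_mul]; exact h (e ⟨z, hz⟩)) : ⟨z, hz⟩ * ⟨q, hq.1⟩ = ⟨q, hq.1⟩ * ⟨z, hz⟩)).elim
        · rw [← map_pow] at h
          exact ⟨i.1, by simpa using (congrArg Subtype.val (e.injective h)).symm⟩)
    exact h10 fun y hy => hB.mem_prime (orderOf_eq_prime (h x hxR) x1 ▸
      H1.orderOf_dvd_card_of_mem (this (mem_zpowers x))) (h y hy)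
  rcases hK r with h | ⟨h5, h6, -⟩
  · exact hn (Subgroup.isCyclic_of_le h4)
  · exact h0 ⟨h5, h6⟩

theorem PB.cy (hB : PB G) [Group.IsSolvable G] [hp : Fact p.Prime] {M U : Subgroup G} [M.Normal]
    (hM : IsElementaryAbelian p M) (hU : U ≤ M) (h1 : U ≠ ⊥) (h2 : U ≠ M) {r : ℕ} [hr : Fact r.Prime]
    (h3 : r ∣ 𝐂(M).index) {R : Subgroup G} (hR : IsPGroup r R) (hN : R ≤ 𝐍(U)) : IsCyclic R := by
  by_contra hn
  haveI := hM.1
  have hP := H3.isPGroup_of_pow_eq_one hM.2
  have h4 : ∀ T, IsSylowIn r T ⊤ → ¬ T ≤ 𝐂(M) := fun T hT e =>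
    hT.not_dvd_relIndex_of_le e le_top (by rwa [relIndex_top_right])
  obtain ⟨h5, h6⟩ := (hB.quot 𝐂(M)).normal_of (fun X _ => ab_cyc (fun e => h1 (le_bot_iff.1 (e ▸ hU))) hM.1
    (fun u hu v hv u1 v1 => hB _ _ inferInstance inferInstance (by
      rw [Nat.card_zpowers, Nat.card_zpowers, orderOf_eq_prime (hM.2 u hu) u1,
        orderOf_eq_prime (hM.2 v hv) v1])) X) (hR.map (QuotientGroup.mk' 𝐂(M))) (fun hc => by
    rcases ((hB.tri r (Or.inr inferInstance)).cases hR).resolve_left hn with ⟨-, h⟩ | ⟨-, h, ⟨e⟩⟩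
    · refine hn (isCyclic_of_injective ((QuotientGroup.mk' 𝐂(M)).subgroupMap R)
        ((injective_iff_map_eq_one _).2 fun x hx => ?_))
      by_contra x1
      obtain ⟨T, hT, h5⟩ := exists_isSylowIn_le hR le_top
      exact h4 T hT fun y hy => hB.mem_prime ((orderOf_eq_prime (h T hT x (h5 x.2))
        fun e => x1 (Subtype.ext e)).symm.dvd.trans (H1.orderOf_dvd_card_of_mem
          ((QuotientGroup.eq_one_iff _).1 (congrArg Subtype.val hx)))) (h T hT y hy)
    · refine q8_not_comm e (((QuotientGroup.mk' 𝐂(M)).subgroupMap R).isMulCommutative_of_isCyclic_of_ker_le_center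
        fun x hx => mem_center_iff.2 fun z => e.injective ?_)
      let f := R.subtype.comp e.symm.toMonoidHom
      have hf : Function.Injective f := (subtype_injective _).comp e.symm.injective
      have h7 : ∀ q : QuaternionGroup 2, (∀ z, z * q = q * z) ∨ ¬ q ^ 2 ^ 1 = 1 ∧ q ^ 2 ^ (1 + 1) = 1 := by decide
      rw [map_mul, map_mul]
      refine (h7 (e x)).resolve_right (fun h8 => h4 R h fun y hy => ?_) _
      simpa [f] using hB.quat_mem hf (m := x) ((QuotientGroup.eq_one_iff _).1 (congrArg Subtype.val hx))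
        (by rw [orderOf_coe, ← e.orderOf_eq, orderOf_eq_prime_pow h8.1 h8.2]; rfl) (e ⟨y, hy⟩))
  have h7 : (R ⊔ 𝐂(M)).Normal := by
    have := h5.comap (QuotientGroup.mk' 𝐂(M))
    rwa [comap_map_eq, QuotientGroup.ker_mk'] at this
  have h8 : ∀ V ≤ M, Nat.card V = Nat.card U → R ≤ 𝐍(V) := fun V hV e => by
    obtain ⟨g, rfl⟩ := hB U V (comm_le hM.1 hU) (comm_le hM.1 hV) e.symm
    rw [← cj_normalizer]
    exact le_sup_left.trans ((cj_eq_of_normal (R ⊔ 𝐂(M)) g).ge.trans (cj_mono g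
      (sup_le hN (le_normalizer_of_le_centralizer (centralizer_anti hU)))))
  refine h6 (H2.isMulCommutative_iff_commutator_eq_bot.2 ?_)
  rw [← map_commutator, Subgroup.map_eq_bot_iff, QuotientGroup.ker_mk', le_centralizer_iff]
  intro u hu
  have h9 : R ≤ 𝐍(zpowers u) := le_normalizer_of_cj_le fun x hx => by
    rw [cj_zpowers, zpowers_le]
    by_contra h9
    have hw : x * u * x⁻¹ ∈ M := Normal.conj_mem inferInstance _ hu x
    have u1 : u ≠ 1 := fun e => h9 (by simp [e])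
    obtain ⟨W, w1, w2, w3⟩ := H5.exists_index_eq_not_mem (p := p) (N := zpowers (⟨u, hu⟩ : M)) (g := ⟨_, hw⟩)
      (by rw [(commutator_eq_bot_iff_center_eq_top _).2 center_eq_top]; exact bot_le)
      (fun y => by rw [show y ^ p = 1 from Subtype.ext (hM.2 y y.2)]; exact one_mem _)
      fun ⟨k, hk⟩ => h9 ⟨k, congrArg Subtype.val hk⟩
    obtain ⟨d, hd⟩ := IsPGroup.iff_card.1 (hP.to_le hU)
    obtain ⟨t, ht⟩ := IsPGroup.iff_card.1 hP
    obtain ⟨d, rfl⟩ := Nat.exists_eq_succ_of_ne_zero (n := d) (fun e => h1 (card_eq_one.1 (by rw [hd, e, pow_zero])))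
    have hz : Nat.card (zpowers (⟨u, hu⟩ : M)) * p ^ d = Nat.card U := by
      rw [Nat.card_zpowers, ← orderOf_coe, orderOf_eq_prime (hM.2 u hu) u1, hd, pow_succ']
    obtain ⟨V, -, v1, v2, v3⟩ := H5.exists_normal_card_between hP w1 d (by
      have h10 := H1.card_lt_of_lt (lt_of_le_of_ne hU h2)
      rw [hd, ht, Nat.pow_lt_pow_iff_right hp.out.one_lt] at h10
      refine Nat.le_of_mul_le_mul_right ?_ hp.out.pos
      rw [hz, hd, ← pow_succ, ← w2, W.card_mul_index, ht, w2]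
      exact Nat.pow_le_pow_right hp.out.pos h10)
    obtain ⟨y, hy, e⟩ := conj_mem_of_mem_normalizer (h8 (V.map M.subtype) (map_subtype_le V)
      (by rw [card_map_subtype, v3, hz]) hx) ⟨_, v1 (mem_zpowers _), rfl⟩
    exact w3 (v2 (by rwa [← show y = ⟨_, hw⟩ from Subtype.ext e]))
  exact le_centralizer_iff.1 (H80.commutator_le_centralizer_of_isCyclic inferInstance h9 h9) (mem_zpowers u)

theorem hall_split {K : Subgroup G} (hK : Group.IsSolvable K) (π : Set ℕ) : ∃ A B, A ⊔ B = K ∧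
    H3.PiNum π (Nat.card A) ∧ H3.PiNum πᶜ (Nat.card B) ∧ Nat.card A * Nat.card B = Nat.card K := by
  obtain ⟨A, hA⟩ := H3.exists_isPiHall (G := K) π
  obtain ⟨B, hB⟩ := H3.exists_isPiHall (G := K) πᶜ
  have := H3.isComplement'_of_isPiHall hA hB
  exact ⟨A.map K.subtype, B.map K.subtype, by rw [← Subgroup.map_sup, this.sup_eq_top, map_subtype_top],
    by rw [card_map_subtype]; exact (H3.isPiHall_iff.1 hA).1,
    by rw [card_map_subtype]; exact (H3.isPiHall_iff.1 hB).1,
    by rw [card_map_subtype, card_map_subtype, this.card_mul]⟩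

theorem PB.conj_in (hB : PB G) [Group.IsSolvable G] [hp : Fact p.Prime] {M U : Subgroup G} [M.Normal]
    (hM : IsElementaryAbelian p M) (hU : U ≤ M) (h1 : U ≠ ⊥) (h2 : U ≠ M) {K L : Subgroup G}
    (hK : K ≤ 𝐍(U)) (hL : L ≤ 𝐍(U)) (cK : IsMulCommutative K) (cL : IsMulCommutative L)
    (hc : Nat.card K = Nat.card L) (hp' : (Nat.card L).Coprime p) : ∃ g ∈ 𝐍(U), L = K ^ᶜ g := by
  have hP := H3.isPGroup_of_pow_eq_one hM.2
  haveI := hM.1
  obtain ⟨A, B, rfl, a1, b1, e1⟩ := hall_split (K := K) inferInstance {r | r ∣ 𝐂(M).index}ᶜ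
  obtain ⟨C, D, rfl, c1, d1, e2⟩ := hall_split (K := L) inferInstance {r | r ∣ 𝐂(M).index}ᶜ
  have h3 : Nat.card A = Nat.card C := a1.eq_of_mul_eq_mul b1 c1 d1 (by rw [e1, e2, hc])
  have h4 : Nat.card B = Nat.card D := Nat.eq_of_mul_eq_mul_left Nat.card_pos (by rw [e1, h3, e2, hc])
  have h5 : ∀ A : Subgroup G, H3.PiNum {r | r ∣ 𝐂(M).index}ᶜ (Nat.card A) → A ≤ 𝐂(U) := fun A h =>
    (H1.le_of_coprime_index (H3.piNum_compl_dvd_iff.1 h)).trans (centralizer_anti hU)
  have h6 : (Nat.card C).Coprime (Nat.card M) :=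
    H2.coprime_card_of_isPGroup (hp'.coprime_dvd_left (card_dvd_of_le le_sup_left)) hP
  have h7 : ∀ A : Subgroup G, A ≤ 𝐂(U) → Nat.card A = Nat.card C →
      Nat.card (U ⊔ A : Subgroup G) = Nat.card U * Nat.card C := fun A h e => by
    rw [H2.card_sup_of_le_normalizer (le_normalizer_of_le_centralizer h)
      (H2.inf_eq_bot_of_coprime_card (H2.coprime_of_le_right (e ▸ h6) hU)), e]
  obtain ⟨g, hg⟩ := hB (U ⊔ A) (U ⊔ C) (comm_sup (comm_le hM.1 hU) (comm_le cK le_sup_left) (h5 A a1))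
    (comm_sup (comm_le hM.1 hU) (comm_le cL le_sup_left) (h5 C c1)) (by rw [h7 A (h5 A a1) h3, h7 C (h5 C c1) rfl])
  have hgN : g ∈ 𝐍(U) := mem_normalizer_of_cj_le ((le_inf ((cj_mono g le_sup_left).trans hg.ge)
    (cj_le_of_mem_normalizer hU (le_normalizer_of_normal (mem_top g)))).trans (by
      rw [dedekind_left (le_normalizer_of_le_centralizer (h5 C c1)) hU, H2.inf_eq_bot_of_coprime_card h6,
        sup_bot_eq]))
  obtain ⟨e, he, h8⟩ := H3.exists_conj_eq_of_coprime (N := U) (H := A ^ᶜ g) (K := C)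
    (le_normalizer_of_le_centralizer (h5 C c1)) ((cj_mono g le_sup_right).trans hg.ge)
    ((card_cj A g).trans h3) (H2.coprime_of_le_right h6 hU).symm (Or.inl inferInstance)
  rw [smul_eq_cj, cj_cj] at h8
  have h9 : e * g ∈ 𝐍(U) := mul_mem (le_normalizer he) hgN
  obtain ⟨H, hH, hDH⟩ := H3.exists_isPiHallOf_ge (K := D) (M := 𝐍(U) ⊓ 𝐂(C)) inferInstance
    (le_inf (le_sup_right.trans hL) (le_sup_right.trans ((comm_iff.1 cL).trans (centralizer_anti le_sup_left))))
    (H3.isPiSubgroup_iff_piNum.2 d1)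
  obtain ⟨d, hd, h10⟩ := H3.exists_conj_le_of_isPiHallOf (K := B ^ᶜ (e * g)) inferInstance hH
    (le_inf (cj_le_of_mem (le_sup_right.trans hK) h9) (by
      rw [← h8, ← cj_centralizer]
      exact cj_mono _ (le_sup_right.trans ((comm_iff.1 cK).trans (centralizer_anti le_sup_left)))))
    (H3.isPiSubgroup_iff_piNum.2 (by rwa [card_cj]))
  rw [smul_eq_cj, cj_cj] at h10
  obtain ⟨h11, h12, -⟩ := H3.isPiHallOf_iff.1 hH
  obtain ⟨h, hh⟩ := pc_of_cy (G := H) (fun r hr R hR => by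
    haveI := Fact.mk hr
    by_cases h13 : r ∣ 𝐂(M).index
    · exact (R.equivMapOfInjective _ H.subtype_injective).isCyclic.2 (hB.cy hM hU h1 h2 h13 (hR.map _)
        ((map_subtype_le R).trans (h11.trans inf_le_left)))
    · exact Cy.of_not_dvd (fun e => H3.piNum_iff.1 h12 r hr e h13) R hR)
    ((B ^ᶜ (d * (e * g))).subgroupOf H) (D.subgroupOf H)
    (by rw [card_subgroupOf h10, card_subgroupOf hDH, card_cj, h4])
  have h13 := congrArg (map H.subtype) hh
  rw [map_subtype_cj, map_subgroupOf_eq_of_le h10, map_subgroupOf_eq_of_le hDH, cj_cj] at h13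
  refine ⟨h * (d * (e * g)), mul_mem (h11 h.2).1 (mul_mem hd.1 h9), ?_⟩
  rw [cj_sup, ← h13, ← mul_assoc, ← cj_cj, h8, cj_eq_of_mem_centralizer (mul_mem (h11 h.2).2 hd.2)]

theorem lift_comm {M : Subgroup G} [M.Normal] (hc : (Nat.card M).Coprime M.index) {A : Subgroup (G ⧸ M)}
    (hA : IsMulCommutative A) : ∃ K : Subgroup G, K.map (QuotientGroup.mk' M) = A ∧ IsMulCommutative K ∧
      Nat.card K = Nat.card A := by
  obtain ⟨K, -, k2, k3, k4⟩ := H3.exists_complement_in (N := M) (T := A.comap (QuotientGroup.mk' M))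
    ((QuotientGroup.ker_mk' M).ge.trans (ker_le_comap _ _)) le_normalizer_of_normal
    (hc.coprime_dvd_right (relIndex_dvd_index_of_normal _ _))
  have h1 : K.map (QuotientGroup.mk' M) = A := by
    rw [← map_comap_eq_self_of_surjective (QuotientGroup.mk'_surjective M) A, ← k2, Subgroup.map_sup,
      QuotientGroup.map_mk'_self, bot_sup_eq]
  refine ⟨K, h1, H2.isMulCommutative_iff_commutator_eq_bot.2 (le_bot_iff.1 (k3 ▸ le_inf ?_
    (commutator_le_of_le le_rfl le_rfl))), by rw [k4, H3.relIndex_comap_mk']⟩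
  refine le_of_le_of_eq ?_ (QuotientGroup.ker_mk' M)
  rw [← Subgroup.map_eq_bot_iff, map_commutator, h1]
  exact H2.isMulCommutative_iff_commutator_eq_bot.1 hA

theorem pc_of_pb (n : ℕ) : ∀ (G : Type u) [Group G] [Finite G] [Group.IsSolvable G], Nat.card G = n →
    PB G → PC G := by
  induction n using Nat.strong_induction_on with | _ n ih =>
  intro G _ _ _ hn hB
  rcases subsingleton_or_nontrivial G with h | h
  · exact fun A B _ => ⟨1, Subsingleton.elim _ _⟩
  obtain ⟨M, hM, -, h2, p, hp, -, h4, h5⟩ := H3.exists_normal_elementary_le (⊤ : Subgroup G)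
    top_ne_bot inferInstance
  haveI := hM.normal
  haveI := Fact.mk hp
  have h6 := dich hM.ne_bot h4 fun A B _ _ => hB A B
  refine driver h5 (fun U hU V hV => hB U V (comm_le h2 hU) (comm_le h2 hV)) (h6.imp And.left And.right)
    fun U hU => ih _ (hn ▸ card_sec_lt hM.ne_bot h2 hU) _ rfl ?_
  by_cases h7 : 𝐍(U) = ⊤
  · obtain ⟨f, hf⟩ := exists_surj (M := M) h7
    exact (hB.quot f.ker).of_equiv (QuotientGroup.quotientKerEquivOfSurjective f hf)
  have h8 := not_dvd_sec (N := 𝐍(U)) (h6.resolve_right fun e => h7 (top_of_prime e.1 hU)).1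
  have hc : (Nat.card (M.subgroupOf 𝐍(U))).Coprime (M.subgroupOf 𝐍(U)).index := by
    obtain ⟨k, hk⟩ := IsPGroup.iff_card.1 (isPGroup_subgroupOf h5 𝐍(U))
    exact hk ▸ (hp.coprime_iff_not_dvd.2 h8).pow_left k
  intro A B hA hB' e
  obtain ⟨K, rfl, k1, k2⟩ := lift_comm hc hA
  obtain ⟨L, rfl, l1, l2⟩ := lift_comm hc hB'
  obtain ⟨g, hg, h9⟩ := hB.conj_in ⟨h2, h4⟩ hU (fun e => h7 (e ▸ normalizer_eq_top _))
    (fun e => h7 (e ▸ normalizer_eq_top _)) (map_subtype_le K) (map_subtype_le L) inferInstance inferInstance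
    (by rw [card_map_subtype, card_map_subtype, k2, l2, e]) (by
      rw [card_map_subtype, l2]
      exact (hp.coprime_iff_not_dvd.2 fun e => h8 (e.trans (card_subgroup_dvd_card _))).symm)
  exact ⟨_, by rw [H69.map_subtype_inj.1 (h9.trans (map_subtype_cj K ⟨g, hg⟩).symm), map_cj]⟩

end H22.Eq
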