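import Mathlib
import Cfsg.Agent.Lib.LocStruct.SylowIn
import Cfsg.Agent.Lib.Core.Fitting
import Cfsg.Agent.Lib.Transfer.Control

/-! Groups in which the normalizer of every nontrivial `{p,q}`-subgroup is maximal: local lemmas. -/

set_option autoImplicit false

namespace H22.Nm

open Subgroup Cfsg H69

variable {X : Type*} [Group X]

/-- The order of `H` has at most two prime divisors. -/
def Bi (H : Subgroup X) : Prop :=
  ∃ p q : ℕ, p.Prime ∧ q.Prime ∧ ∀ r : ℕ, r.Prime → r ∣ Nat.card H → r = p ∨ r = q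

/-- Normalizers of nontrivial `{p,q}`-subgroups are maximal. -/
def Hyp (X : Type*) [Group X] : Prop := ∀ H : Subgroup X, H ≠ ⊥ → Bi H → IsCoatom 𝐍(H)

theorem co_eq {A B : Subgroup X} (hA : IsCoatom A) (hB : B ≠ ⊤) (h : A ≤ B) : A = B := by
  rcases h.lt_or_eq with h | h
  · exact absurd (hA.2 _ h) hB
  · exact h

theorem pg_zpowers {p k : ℕ} {x : X} (h : x ^ p ^ k = 1) : IsPGroup p (zpowers x) := by
  rw [isPGroup_iff_mem]
  rintro _ ⟨i, rfl⟩
  exact ⟨k, by simp only []; rw [← zpow_natCast, ← zpow_mul, mul_comm, zpow_mul, zpow_natCast, h, one_zpow]⟩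

theorem pg_zpowers1 {p : ℕ} {x : X} (h : x ^ p = 1) : IsPGroup p (zpowers x) :=
  pg_zpowers (k := 1) (by simpa using h)

theorem eq_one_of_pq {p q : ℕ} [Fact p.Prime] [Fact q.Prime] (hpq : p ≠ q) {U Q : Subgroup X}
    (hU : IsPGroup p U) (hQ : IsPGroup q Q) {y : X} (h1 : y ∈ U) (h2 : y ∈ Q) : y = 1 :=
  (disjoint_iff.1 (IsPGroup.disjoint_of_ne p q hpq U Q hU hQ)).le ⟨h1, h2⟩

theorem le_of_pq {p q : ℕ} [Fact p.Prime] [Fact q.Prime] (hpq : p ≠ q) {U Q W : Subgroup X}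
    (hU : IsPGroup p U) (hQ : IsPGroup q Q) (hn : Q ≤ 𝐍(U)) (hW : IsPGroup p W)
    (hWle : W ≤ U ⊔ Q) : W ≤ U := by
  intro w hw
  obtain ⟨u, hu, y, hy, rfl⟩ := (mem_sup_of_le_normalizer_left hn).1 (hWle hw)
  have h1 : IsPGroup p (U ⊔ W : Subgroup X) :=
    isPGroup_sup_of_le_normalizer_left hU hW (hWle.trans (sup_le le_normalizer hn))
  have h2 : y ∈ U ⊔ W := by
    have := mul_mem (inv_mem (mem_sup_left (T := W) hu)) (mem_sup_right (S := U) hw)
    simpa using this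
  rw [eq_one_of_pq hpq h1 hQ h2 hy, mul_one]; exact hu

theorem mem_zpowers_two {s y : X} (hs : s ^ 2 = 1) (h : y ∈ zpowers s) : y = 1 ∨ y = s := by
  obtain ⟨i, rfl⟩ := h
  have h2 : s ^ (2 : ℤ) = 1 := by exact_mod_cast hs
  rcases Int.even_or_odd' i with ⟨k, rfl | rfl⟩
  · left; simp only []; rw [zpow_mul, h2, one_zpow]
  · right; simp only []; rw [zpow_add, zpow_mul, h2, one_zpow, one_mul, zpow_one]

theorem mem_zpowers_three {e y : X} (he : e ^ 3 = 1) (h : y ∈ zpowers e) :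
    y = 1 ∨ y = e ∨ y = e⁻¹ := by
  obtain ⟨i, rfl⟩ := h
  have h3 : e ^ (3 : ℤ) = 1 := by exact_mod_cast he
  have : i = 3 * (i / 3) + i % 3 := by omega
  simp only []
  rw [this, zpow_add, zpow_mul, h3, one_zpow, one_mul]
  have h : i % 3 = 0 ∨ i % 3 = 1 ∨ i % 3 = 2 := by omega
  rcases h with h | h | h <;> rw [h]
  · simp
  · simp
  · right; right
    rw [eq_inv_iff_mul_eq_one, ← zpow_add_one]; exact h3

theorem mem_cent1 {z g : X} : g ∈ centralizer ({z} : Set X) ↔ Commute g z := by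
  rw [mem_centralizer_singleton_iff]; rfl

theorem cent_le_norm (z : X) : centralizer ({z} : Set X) ≤ 𝐍(zpowers z) := by
  rw [← centralizer_zpowers]; exact centralizer_le_normalizer _

theorem zpowers_le_cent {A : Subgroup X} {x : X} : zpowers x ≤ 𝐂(A) ↔ x ∈ 𝐂(A) := zpowers_le

theorem mem_cent_comm {A : Subgroup X} {g : X} : g ∈ 𝐂(A) ↔ ∀ a ∈ A, Commute a g :=
  mem_centralizer_iff_commute

/-- `A` has index at most two in `U`. -/
def I2 (A U : Subgroup X) : Prop := ∀ a ∈ U, ∀ b ∈ U, a ∉ A → b ∉ A → a⁻¹ * b ∈ A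

theorem card_le_four {A B U : Subgroup X} (hA : I2 A U) (hB : I2 B U)
    (h : ∀ u ∈ U, u ∈ A → u ∈ B → u = 1) : Nat.card U ≤ 4 := by
  have key : ∀ {C : Subgroup X}, I2 C U → ∀ a b : U, ((a : X) ∈ C ↔ (b : X) ∈ C) →
      (a : X)⁻¹ * b ∈ C := by
    intro C hC a b hab
    by_cases ha : (a : X) ∈ C
    · exact mul_mem (inv_mem ha) (hab.1 ha)
    · exact hC a a.2 b b.2 ha (fun hb => ha (hab.2 hb))
  have hinj : Function.Injective (fun u : U => (((u : X) ∈ A, (u : X) ∈ B) : Prop × Prop)) := by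
    intro a b hab
    simp only [Prod.mk.injEq, eq_iff_iff] at hab
    have := h _ (mul_mem (inv_mem a.2) b.2) (key hA a b hab.1) (key hB a b hab.2)
    exact Subtype.ext (inv_mul_eq_one.1 this)
  have := Nat.card_le_card_of_injective _ hinj
  simpa using this

theorem I2.cj {A U : Subgroup X} (h : I2 A U) {g : X} (hg : g ∈ 𝐍(U)) : I2 (A ^ᶜ g) U := by
  intro a ha b hb h1 h2
  rw [mem_cj] at h1 h2 ⊢
  have := h _ (conj_mem_of_mem_normalizer' hg ha) _ (conj_mem_of_mem_normalizer' hg hb) h1 h2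
  convert this using 1; group

theorem mem_four [Finite X] {U : Subgroup X} (hc : Nat.card U ≤ 4) {a b c v : X} (ha : a ∈ U)
    (hb : b ∈ U) (hc' : c ∈ U) (a1 : a ≠ 1) (b1 : b ≠ 1) (c1 : c ≠ 1) (ab : a ≠ b) (ac : a ≠ c)
    (bc : b ≠ c) (hv : v ∈ U) : v = 1 ∨ v = a ∨ v = b ∨ v = c := by
  by_contra hne
  push Not at hne
  obtain ⟨h1, h2, h3, h4⟩ := hne
  have hs : ({v, 1, a, b, c} : Set X) ⊆ (U : Set X) := by
    intro y hy
    simp only [Set.mem_insert_iff, Set.mem_singleton_iff] at hy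
    rcases hy with rfl | rfl | rfl | rfl | rfl
    exacts [hv, one_mem _, ha, hb, hc']
  have h5 : ({v, 1, a, b, c} : Set X).ncard = 5 := by
    rw [Set.ncard_insert_of_notMem (by simp [h1, h2, h3, h4]),
      Set.ncard_insert_of_notMem (by simp [a1.symm, b1.symm, c1.symm]),
      Set.ncard_insert_of_notMem (by simp [ab, ac]), Set.ncard_pair bc]
  have := Set.ncard_le_ncard hs
  rw [h5] at this
  have e : (U : Set X).ncard = Nat.card U := rfl
  omega

variable [Finite X]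

theorem bi_sup {p q : ℕ} [hp : Fact p.Prime] [hq : Fact q.Prime] {U Q : Subgroup X}
    (hU : IsPGroup p U) (hQ : IsPGroup q Q) (hn : Q ≤ 𝐍(U)) : Bi (U ⊔ Q) := by
  refine ⟨p, q, hp.out, hq.out, fun r hr hd => ?_⟩
  have h : IsPiSubgroup ({p, q} : Set ℕ) (Q ⊔ U) :=
    H1.isPiSubgroup_sup_of_le_normalizer
      (H1.isPiSubgroup_mono (H1.isPiSubgroup_singleton_iff.2 hQ) (by simp))
      (H1.isPiSubgroup_mono (H1.isPiSubgroup_singleton_iff.2 hU) (by simp)) hn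
  rw [sup_comm] at h
  simpa using H1.isPiSubgroup_iff.1 h r hr hd

theorem bi_p {p : ℕ} [hp : Fact p.Prime] {U : Subgroup X} (hU : IsPGroup p U) : Bi U := by
  simpa using bi_sup hU (IsPGroup.of_bot (p := p)) bot_le

theorem two_of_no_odd {H : Subgroup X}
    (h : ∀ y ∈ H, ∀ s : ℕ, s.Prime → s ≠ 2 → orderOf y = s → False) : IsPGroup 2 H := by
  rw [← H1.isPiSubgroup_singleton_iff, H1.isPiSubgroup_iff]
  intro s hs hd
  by_contra hne
  haveI := Fact.mk hs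
  obtain ⟨y, hy⟩ := exists_prime_orderOf_dvd_card' s hd
  exact h y y.2 s hs (by simpa using hne) (by simpa using hy)

theorem pg_of_orderOf {p : ℕ} {y : X} (h : orderOf y = p) : IsPGroup p (zpowers y) :=
  pg_zpowers1 (by rw [← h, pow_orderOf_eq_one])

theorem ne_one_of_orderOf {p : ℕ} (hp : p.Prime) {y : X} (h : orderOf y = p) : y ≠ 1 := by
  rintro rfl
  rw [orderOf_one] at h
  exact hp.one_lt.ne h

namespace Hyp

variable (h : Hyp X)
include h

theorem co {p : ℕ} [Fact p.Prime] {U : Subgroup X} (hU : IsPGroup p U) (h0 : U ≠ ⊥) :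
    IsCoatom 𝐍(U) := h U h0 (bi_p hU)

theorem cent_ne_top {p : ℕ} [Fact p.Prime] {z : X} (hz : IsPGroup p (zpowers z)) (h0 : z ≠ 1) :
    centralizer ({z} : Set X) ≠ ⊤ := fun e =>
  (h.co hz (by simpa using h0)).1 (top_le_iff.1 (e ▸ cent_le_norm z))

theorem a2 {p q : ℕ} [Fact p.Prime] [Fact q.Prime] (hpq : p ≠ q) {U Q : Subgroup X}
    (hU : IsPGroup p U) (hQ : IsPGroup q Q) (h0 : U ≠ ⊥) (hn : Q ≤ 𝐍(U)) : 𝐍(U ⊔ Q) = 𝐍(U) := by
  refine co_eq (h _ (fun e => h0 (le_bot_iff.1 (e ▸ le_sup_left))) (bi_sup hU hQ hn))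
    (h.co hU h0).1 fun g hg => mem_normalizer_of_cj_le ?_
  exact le_of_pq hpq hU hQ hn (isPGroup_cj hU g) (cj_le_of_mem_normalizer le_sup_left hg)

theorem a3 {p q : ℕ} [Fact p.Prime] [Fact q.Prime] (hpq : p ≠ q) {U Q : Subgroup X}
    (hU : IsPGroup p U) (hQ : IsPGroup q Q) (h0 : U ≠ ⊥) (h1 : Q ≠ ⊥) (hn : Q ≤ 𝐂(U)) :
    𝐍(U) = 𝐍(Q) := by
  rw [← h.a2 hpq hU hQ h0 (le_normalizer_of_le_centralizer hn), sup_comm,
    h.a2 hpq.symm hQ hU h1 (le_normalizer_of_le_centralizer (le_centralizer_iff.1 hn))]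

theorem a4 {p q : ℕ} [Fact p.Prime] [Fact q.Prime] (hpq : p ≠ q) {U Q : Subgroup X}
    (hU : IsPGroup p U) (hQ : IsPGroup q Q) (hn : Q ≤ 𝐍(U)) (h0 : U ⊓ 𝐂(Q) ≠ ⊥) : Q ≤ 𝐂(U) := by
  by_cases h1 : Q = ⊥
  · rw [h1]; exact bot_le
  rw [le_centralizer_iff]
  by_contra hle
  have hlt : U ⊓ 𝐂(Q) < U := lt_of_le_of_ne inf_le_left fun e => hle (e ▸ inf_le_right)
  have h2 := lt_inf_normalizer_of_lt hU hlt
  rw [h.a3 hpq (hU.to_le inf_le_left) hQ h0 h1 (le_centralizer_iff.1 inf_le_right)] at h2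
  refine h2.not_ge fun u hu => ⟨hu.1, mem_cent_comm.2 fun y hy => ?_⟩
  have e : y * u * y⁻¹ * u⁻¹ = 1 := eq_one_of_pq hpq hU hQ
    (mul_mem (conj_mem_of_mem_normalizer (hn hy) hu.1) (inv_mem hu.1))
    (by
      have := mul_mem hy (conj_mem_of_mem_normalizer hu.2 (inv_mem hy))
      simpa [mul_assoc] using this)
  exact commutatorElement_eq_one_iff_commute.1 e

/-- an involution normalizing a cyclic group of odd prime power order centralizes or inverts it -/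
theorem inv_of_not_comm {q : ℕ} [Fact q.Prime] (hq : q ≠ 2) {a y : X} (ha : a ^ 2 = 1)
    (hy : IsPGroup q (zpowers y)) (hn : a ∈ 𝐍(zpowers y)) (hc : ¬ Commute y a) :
    a * y * a⁻¹ = y⁻¹ := by
  have hm : a * y * a⁻¹ ∈ zpowers y := conj_mem_of_mem_normalizer hn (mem_zpowers y)
  by_contra hne
  refine hc (mem_cent_comm.1 (zpowers_le.1 (h.a4 hq hy (pg_zpowers1 ha) (zpowers_le.2 hn) ?_)) y
    (mem_zpowers y))
  intro e
  have hai : a⁻¹ = a := by rw [inv_eq_iff_mul_eq_one, ← sq, ha]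
  have hcm : Commute y (a * y * a⁻¹) := by
    obtain ⟨i, hi⟩ := hm
    rw [← hi]; exact Commute.zpow_right rfl i
  have : y * (a * y * a⁻¹) ∈ zpowers y ⊓ 𝐂(zpowers a) := by
    refine ⟨mul_mem (mem_zpowers y) hm, ?_⟩
    rw [centralizer_zpowers]
    refine mem_cent1.2 ?_
    have e1 : a * (y * (a * y * a⁻¹)) * a⁻¹ = (a * y * a⁻¹) * y := by
      calc _ = (a * y * a⁻¹) * ((a * a) * y * (a * a)⁻¹) := by group
        _ = _ := by rw [← sq, ha]; group
    rw [← hcm.eq] at e1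
    exact (mul_inv_eq_iff_eq_mul.1 e1).symm
  rw [e, mem_bot] at this
  exact hne (eq_inv_of_mul_eq_one_right this)

end Hyp

/-- A 2-subgroup with an element of odd prime power order acting nontrivially on it. -/
structure Ess (U : Subgroup X) (x : X) (q : ℕ) : Prop where
  qp : q.Prime
  q2 : q ≠ 2
  two : IsPGroup 2 U
  xq : IsPGroup q (zpowers x)
  nm : x ∈ 𝐍(U)
  nc : x ∉ 𝐂(U)

namespace Ess

variable {U : Subgroup X} {x : X} {q : ℕ} (e : Ess U x q)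
include e

omit [Finite X] in
theorem ne_bot : U ≠ ⊥ := by
  rintro rfl
  exact e.nc (by rw [centralizer_bot]; trivial)

omit [Finite X] in
theorem cj (g : X) : Ess (U ^ᶜ g) (g * x * g⁻¹) q where
  qp := e.qp
  q2 := e.q2
  two := isPGroup_cj e.two g
  xq := by rw [← cj_zpowers]; exact isPGroup_cj e.xq g
  nm := by rw [← cj_normalizer]; exact cj_mem g e.nm
  nc := by rw [← cj_centralizer, cj_mem_iff]; exact e.nc

theorem fpf (h : Hyp X) {u : X} (hu : u ∈ U) (hc : Commute u x) : u = 1 := by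
  haveI := Fact.mk e.qp
  by_contra hne
  refine e.nc (zpowers_le.1 (h.a4 e.q2.symm e.two e.xq (zpowers_le.2 e.nm) fun e' => hne ?_))
  rw [← mem_bot, ← e', centralizer_zpowers]
  exact ⟨hu, mem_cent1.2 hc⟩

theorem nsup (h : Hyp X) : 𝐍(U ⊔ zpowers x) = 𝐍(U) := by
  haveI := Fact.mk e.qp
  exact h.a2 e.q2.symm e.two e.xq e.ne_bot (zpowers_le.2 e.nm)

theorem max (h : Hyp X) {W : Subgroup X} (hW : IsPGroup 2 W) (hUW : U ≤ W) (hx : x ∈ 𝐍(W)) :
    W = U := by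
  haveI := Fact.mk e.qp
  by_contra hne
  have hlt := lt_inf_normalizer_of_lt hW (lt_of_le_of_ne hUW (Ne.symm hne))
  set V := W ⊓ 𝐍(U) with hV
  have hxV : x ∈ 𝐍(V) := zpowers_le.1
    (le_normalizer_inf (zpowers_le.2 hx) (le_normalizer_normalizer (zpowers_le.2 e.nm)))
  have eV : Ess V x q := ⟨e.qp, e.q2, hW.to_le inf_le_left, e.xq, hxV,
    fun hc => e.nc (centralizer_anti hlt.le hc)⟩
  have hm : ∀ w ∈ V, w⁻¹ * (x * w * x⁻¹) ∈ U := by
    intro w hw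
    have h1 : w⁻¹ * (x * w * x⁻¹) ∈ V := mul_mem (inv_mem hw) (conj_mem_of_mem_normalizer hxV hw)
    have h2 : w⁻¹ * (x * w * x⁻¹) ∈ U ⊔ zpowers x := by
      have hxx : x ∈ U ⊔ zpowers x := mem_sup_right (mem_zpowers x)
      have := mul_mem (conj_mem_of_mem_normalizer' (e.nsup h ▸ hw.2) hxx) (inv_mem hxx)
      simpa [mul_assoc] using this
    exact le_of_pq e.q2.symm e.two e.xq (zpowers_le.2 e.nm) (eV.two.to_le inf_le_left)
      (inf_le_right : V ⊓ (U ⊔ zpowers x) ≤ _) ⟨h1, h2⟩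
  have hinj : Function.Injective (fun w : V => (⟨_, hm w w.2⟩ : U)) := by
    intro a b hab
    have h1 : (a : X)⁻¹ * (x * a * x⁻¹) = (b : X)⁻¹ * (x * b * x⁻¹) := congrArg Subtype.val hab
    have h2 : Commute ((b : X) * (a : X)⁻¹) x := by
      have : (b : X) * (a : X)⁻¹ * x = b * ((a : X)⁻¹ * (x * a * x⁻¹)) * (x * (a : X)⁻¹) := by group
      rw [h1] at this
      rw [Commute, SemiconjBy, this]; group
    exact Subtype.ext (mul_inv_eq_one.1 (eV.fpf h (mul_mem b.2 (inv_mem a.2)) h2)).symm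
  have h1 := Nat.card_le_card_of_injective _ hinj
  exact hlt.ne (Subgroup.eq_of_le_of_card_ge hlt.le h1)

theorem min (h : Hyp X) {V : Subgroup X} (hVU : V ≤ U) (h0 : V ≠ ⊥) (hx : x ∈ 𝐍(V)) : V = U := by
  have eV : Ess V x q := ⟨e.qp, e.q2, e.two.to_le hVU, e.xq, hx, fun hc => h0 (eq_bot_iff.2
    fun v hv => e.fpf h (hVU hv) (mem_cent_comm.1 hc v hv))⟩
  exact (eV.max h e.two hVU e.nm).symm

theorem ab (h : Hyp X) : U ≤ 𝐂(U) := by
  have := e.min h (inf_le_left : U ⊓ 𝐂(U) ≤ U) (center_ne_bot e.two e.ne_bot) (zpowers_le.1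
    (le_normalizer_inf (zpowers_le.2 e.nm) (le_normalizer_centralizer (zpowers_le.2 e.nm))))
  exact this.ge.trans inf_le_right

theorem comm (h : Hyp X) {a b : X} (ha : a ∈ U) (hb : b ∈ U) : Commute a b :=
  mem_cent_comm.1 (e.ab h hb) a ha

theorem sq (h : Hyp X) {u : X} (hu : u ∈ U) : u ^ 2 = 1 := by
  let V : Subgroup X :=
    { carrier := {u | u ∈ U ∧ u ^ 2 = 1}
      mul_mem' := fun {a b} ha hb => ⟨mul_mem ha.1 hb.1, by
        rw [(e.comm h ha.1 hb.1).mul_pow, ha.2, hb.2, one_mul]⟩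
      one_mem' := ⟨one_mem _, one_pow _⟩
      inv_mem' := fun {a} ha => ⟨inv_mem ha.1, by rw [inv_pow, ha.2, inv_one]⟩ }
  have hV : V = U := by
    refine e.min h (fun a ha => ha.1) ?_ (mem_normalizer_of_cj_le ?_)
    · obtain ⟨z, hz, ho⟩ := exists_orderOf_eq_prime e.two e.ne_bot
      intro e'
      have : z ∈ V := ⟨hz, by rw [← ho, pow_orderOf_eq_one]⟩
      rw [e', mem_bot] at this
      exact ne_one_of_orderOf Nat.prime_two ho this
    · intro y hy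
      obtain ⟨a, ha, rfl⟩ := mem_cj'.1 hy
      exact ⟨conj_mem_of_mem_normalizer e.nm ha.1, by rw [conj_pow, ha.2]; group⟩
  rw [← hV] at hu
  exact hu.2

theorem exists_ne : ∃ u ∈ U, u ≠ 1 := by
  by_contra hc
  push Not at hc
  exact e.ne_bot (eq_bot_iff.2 hc)

theorem cent (h : Hyp X) : 𝐂(U) = U := by
  refine e.max h (two_of_no_odd fun y hy s hs s2 ho => ?_) (e.ab h)
    (normalizer_le_normalizer_centralizer U e.nm)
  haveI := Fact.mk hs
  obtain ⟨u, hu, u1⟩ := e.exists_ne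
  have y0 : zpowers y ≠ ⊥ := by simpa using ne_one_of_orderOf hs ho
  have h1 := h.a3 s2.symm e.two (pg_of_orderOf ho) e.ne_bot y0 (zpowers_le.2 hy)
  have h2 := h.a3 s2.symm (pg_zpowers1 (e.sq h hu)) (pg_of_orderOf ho) (by simpa using u1) y0
    (zpowers_le.2 (centralizer_anti (zpowers_le.2 hu) hy))
  have h3 : x ∈ 𝐍(zpowers u) := by rw [h2, ← h1]; exact e.nm
  rcases mem_zpowers_two (e.sq h hu) (conj_mem_of_mem_normalizer h3 (mem_zpowers u)) with h4 | h4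
  · exact u1 (by simpa using h4)
  · exact u1 (e.fpf h hu (mul_inv_eq_iff_eq_mul.1 h4).symm)

theorem of_mem (h : Hyp X) {k : X} (hk : k ∈ zpowers x) (k1 : k ≠ 1) : Ess U k q := by
  haveI := Fact.mk e.qp
  refine ⟨e.qp, e.q2, e.two, e.xq.to_le (zpowers_le.2 hk), zpowers_le.2 e.nm hk, fun hc => k1 ?_⟩
  rw [e.cent h] at hc
  exact eq_one_of_pq e.q2.symm e.two e.xq hc hk

theorem sq_ne : x ^ 2 ≠ 1 := by
  haveI := Fact.mk e.qp
  intro h2
  have := eq_one_of_pq e.q2.symm (pg_zpowers1 h2) e.xq (mem_zpowers x) (mem_zpowers x)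
  exact e.nc (this ▸ one_mem _)

/-- On a four-group, `x` permutes the involutions cyclically. -/
theorem four (h : Hyp X) (hc : Nat.card U ≤ 4) {a : X} (ha : a ∈ U) (a1 : a ≠ 1) :
    (∀ v ∈ U, v = 1 ∨ v = a ∨ v = x * a * x⁻¹ ∨ v = x ^ 2 * a * (x ^ 2)⁻¹) ∧ x ^ 3 = 1 := by
  have hb := conj_mem_of_mem_normalizer e.nm ha
  have hc' := conj_mem_of_mem_normalizer (pow_mem e.nm 2) ha
  have ab : a ≠ x * a * x⁻¹ := fun h1 => a1 (e.fpf h ha (mul_inv_eq_iff_eq_mul.1 h1.symm).symm)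
  have ac : a ≠ x ^ 2 * a * (x ^ 2)⁻¹ := fun h1 =>
    a1 ((e.of_mem h (pow_mem (mem_zpowers x) 2) e.sq_ne).fpf h ha
      (mul_inv_eq_iff_eq_mul.1 h1.symm).symm)
  have bc : x * a * x⁻¹ ≠ x ^ 2 * a * (x ^ 2)⁻¹ := fun h1 => ab (by
    have : x⁻¹ * (x * a * x⁻¹) * x = x⁻¹ * (x ^ 2 * a * (x ^ 2)⁻¹) * x := by rw [h1]
    calc a = x⁻¹ * (x * a * x⁻¹) * x := by group
      _ = _ := this
      _ = _ := by group)
  have key : ∀ v ∈ U, v = 1 ∨ v = a ∨ v = x * a * x⁻¹ ∨ v = x ^ 2 * a * (x ^ 2)⁻¹ :=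
    fun v hv => mem_four hc ha hb hc' a1 (by simpa using a1) (by simpa using a1) ab ac bc hv
  refine ⟨key, ?_⟩
  by_contra h3
  have hd := conj_mem_of_mem_normalizer (pow_mem e.nm 3) ha
  rcases key _ hd with h1 | h1 | h1 | h1
  · exact a1 (by simpa using h1)
  · exact a1 ((e.of_mem h (pow_mem (mem_zpowers x) 3) h3).fpf h ha
      (mul_inv_eq_iff_eq_mul.1 h1).symm)
  · refine ac ?_
    calc a = x⁻¹ * (x * a * x⁻¹) * x := by group
      _ = x⁻¹ * (x ^ 3 * a * (x ^ 3)⁻¹) * x := by rw [h1]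
      _ = _ := by group
  · refine ab ?_
    calc a = (x ^ 2)⁻¹ * (x ^ 2 * a * (x ^ 2)⁻¹) * x ^ 2 := by group
      _ = (x ^ 2)⁻¹ * (x ^ 3 * a * (x ^ 3)⁻¹) * x ^ 2 := by rw [h1]
      _ = _ := by group

theorem conj_four (h : Hyp X) (hc : Nat.card U ≤ 4) {a v : X} (ha : a ∈ U) (a1 : a ≠ 1)
    (hv : v ∈ U) (v1 : v ≠ 1) : ∃ k ∈ zpowers x, v = k * a * k⁻¹ := by
  rcases (e.four h hc ha a1).1 v hv with h1 | h1 | h1 | h1
  · exact absurd h1 v1
  · exact ⟨1, one_mem _, by simpa using h1⟩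
  · exact ⟨x, mem_zpowers x, h1⟩
  · exact ⟨x ^ 2, pow_mem (mem_zpowers x) 2, h1⟩

/-- An element of `N(U)` fixing `z` fixes or swaps the other two involutions. -/
theorem swap (h : Hyp X) (hc : Nat.card U ≤ 4) {z a n : X} (hz : z ∈ U) (z1 : z ≠ 1) (ha : a ∈ U)
    (a1 : a ≠ 1) (az : a ≠ z) (hn : n ∈ 𝐍(U)) (hnz : Commute n z) :
    (∀ v ∈ U, v = 1 ∨ v = z ∨ v = a ∨ v = a * z) ∧ (n ∈ U ∨ n * a * n⁻¹ = a * z) := by
  have hai : a⁻¹ = a := by rw [inv_eq_iff_mul_eq_one, ← _root_.sq, e.sq h ha]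
  have key : ∀ v ∈ U, v = 1 ∨ v = z ∨ v = a ∨ v = a * z := fun v hv =>
    mem_four hc hz ha (mul_mem ha hz) z1 a1
      (fun h1 => az (by rw [← hai]; exact (eq_inv_of_mul_eq_one_right h1).symm)) az.symm
      (fun h1 => a1 (by simpa using h1)) (fun h1 => z1 (by simpa using h1)) hv
  refine ⟨key, ?_⟩
  rcases key _ (conj_mem_of_mem_normalizer hn ha) with h1 | h1 | h1 | h1
  · exact absurd (by simpa using h1) a1
  · refine absurd ?_ az
    calc a = n⁻¹ * (n * a * n⁻¹) * n := by group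
      _ = n⁻¹ * (z * n) := by rw [h1]; group
      _ = z := by rw [← hnz.eq]; group
  · left
    rw [← e.cent h, mem_cent_comm]
    have hna : Commute a n := (mul_inv_eq_iff_eq_mul.1 h1).symm
    intro v hv
    rcases key v hv with rfl | rfl | rfl | rfl
    exacts [Commute.one_left _, hnz.symm, hna, hna.mul_left hnz.symm]
  · exact Or.inr h1

end Ess

end H22.Nm
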